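import Groth.Agent.Flat2F.MaxLocus
import Mathlib.AlgebraicGeometry.ZariskisMainTheorem

/-!
The locus where the fibre integral of a positive weighting attains its maximum, for separated
locally quasi-finite morphisms with finite fibres (no quasi-compactness assumed): it is open and the
morphism is finite over it.
-/

set_option autoImplicit false
universe u

namespace Groth.Agent.Old.H20.MaxFinite

open AlgebraicGeometry CategoryTheory Limits
open Groth.Agent.Flat2F
open FibreIntegral GeomPts ResSplit Split WeightLoc FibrePow MaxLocus Topology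

variable {X Y : Scheme.{u}}

/-- The set of all geometric lifts is finite when the topological fibre is. -/
lemma finite_L_of_finite (f : X ⟶ Y) [LocallyQuasiFinite f] {K : Type u} [Field K] [IsAlgClosed K]
    (ω : Spec (.of K) ⟶ Y) (h : (f ⁻¹' {ω (pt K)}).Finite) (U : X.Opens) : (L f ω U).Finite := by
  have h1 : L f ω U ⊆ ⋃ x ∈ f ⁻¹' {ω (pt K)}, {s | s ≫ f = ω ∧ s (pt K) = x} := by
    intro s hs
    simp only [Set.mem_iUnion]
    exact ⟨s (pt K), apply_pt_of_mem_L hs, hs.1, rfl⟩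
  refine (h.biUnion fun x hx => ?_).subset h1
  have h2 := (card_lift f K ω x hx).1
  exact Set.finite_coe_iff.mp h2

/-- Finiteness of the fibres is stable under base change for locally quasi-finite morphisms. -/
lemma finite_fibre_baseChange (f : X ⟶ Y) [LocallyQuasiFinite f] {V : Scheme.{u}} (g : V ⟶ Y)
    (v : V) (h : (f ⁻¹' {g v}).Finite) : (pullback.snd f g ⁻¹' {v}).Finite := by
  have h1 : pullback.snd f g ⁻¹' {v} ⊆ ⋃ x ∈ f ⁻¹' {g v},
      {z : ↥(pullback f g) | pullback.fst f g z = x ∧ pullback.snd f g z = v} := by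
    intro z hz
    simp only [Set.mem_preimage, Set.mem_singleton_iff] at hz
    simp only [Set.mem_iUnion]
    refine ⟨pullback.fst f g z, ?_, rfl, hz⟩
    simp only [Set.mem_preimage, Set.mem_singleton_iff]
    rw [← Scheme.Hom.comp_apply, pullback.condition, Scheme.Hom.comp_apply, hz]
  exact (h.biUnion fun x _ => finite_points f x g v).subset h1

/-- Lower bound of a fibre integral. -/
theorem sum_le_fibreIntegral' (f : X ⟶ Y) [LocallyQuasiFinite f] (w : X → ℤ)
    (hw : ∀ x, 0 ≤ w x) {ι : Type*} [Finite ι]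
    (U : ι → X.Opens) [∀ i, IsFinite ((U i).ι ≫ f)] (y : Y) (hy : (f ⁻¹' {y}).Finite)
    (h2 : ∀ x i j, f x = y → x ∈ U i → x ∈ U j → i = j) :
    ∑ᶠ i, MoreMor.fibreIntegral ((U i).ι ≫ f) (fun x => w ((U i).ι x)) y ≤ MoreMor.fibreIntegral f w y := by
  obtain ⟨K, _, _, ω, rfl⟩ := exists_geometric_point Y y
  have h4 : (L f ω ⊤).Finite := finite_L_of_finite f ω hy ⊤
  rw [fibreIntegral_top]
  have h3 : ⋃ i, L f ω (U i) ⊆ L f ω ⊤ := Set.iUnion_subset fun i => L_mono f ω le_top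
  have h5 : ∑ᶠ i, MoreMor.fibreIntegral ((U i).ι ≫ f) (fun x => w ((U i).ι x)) (ω (pt K)) =
      ∑ᶠ s ∈ ⋃ i, L f ω (U i), w (s (pt K)) := by
    rw [finsum_mem_iUnion]
    · refine finsum_congr fun i => ?_
      exact (fibreIntegral_ι f (U i) w ω)
    · intro i j hij
      rw [Function.onFun, Set.disjoint_left]
      intro s hs hs'
      exact hij (h2 _ i j (apply_pt_of_mem_L hs) hs.2 hs'.2)
    · intro i
      exact finite_L f (U i) ω
  rw [h5]
  have h6 : (⋃ i, L f ω (U i)).Finite := h4.subset h3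
  rw [finsum_mem_eq_finite_toFinset_sum _ h6, finsum_mem_eq_finite_toFinset_sum _ h4]
  refine Finset.sum_le_sum_of_subset_of_nonneg ?_ fun s _ _ => hw _
  exact Set.Finite.toFinset_mono h3

/-- Strict lower bound of a fibre integral. -/
theorem mem_of_fibreIntegral_le' (f : X ⟶ Y) [LocallyQuasiFinite f] (w : X → ℤ)
    (hw : ∀ x, 0 < w x) {ι : Type*} [Finite ι]
    (U : ι → X.Opens) [∀ i, IsFinite ((U i).ι ≫ f)] (y : Y) (hy : (f ⁻¹' {y}).Finite)
    (h2 : ∀ x i j, f x = y → x ∈ U i → x ∈ U j → i = j)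
    (h : MoreMor.fibreIntegral f w y ≤
      ∑ᶠ i, MoreMor.fibreIntegral ((U i).ι ≫ f) (fun x => w ((U i).ι x)) y)
    (x : X) (hx : f x = y) : ∃ i, x ∈ U i := by
  by_contra hne
  push Not at hne
  obtain ⟨K, _, _, ω, rfl⟩ := exists_geometric_point Y y
  have h4 : (L f ω ⊤).Finite := finite_L_of_finite f ω hy ⊤
  rw [fibreIntegral_top] at h
  have h3 : ⋃ i, L f ω (U i) ⊆ L f ω ⊤ := Set.iUnion_subset fun i => L_mono f ω le_top
  have h5 : ∑ᶠ i, MoreMor.fibreIntegral ((U i).ι ≫ f) (fun x => w ((U i).ι x)) (ω (pt K)) =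
      ∑ᶠ s ∈ ⋃ i, L f ω (U i), w (s (pt K)) := by
    rw [finsum_mem_iUnion]
    · refine finsum_congr fun i => ?_
      exact (fibreIntegral_ι f (U i) w ω)
    · intro i j hij
      rw [Function.onFun, Set.disjoint_left]
      intro s hs hs'
      exact hij (h2 _ i j (apply_pt_of_mem_L hs) hs.2 hs'.2)
    · intro i
      exact finite_L f (U i) ω
  rw [h5] at h
  have h6 : (⋃ i, L f ω (U i)).Finite := h4.subset h3
  rw [finsum_mem_eq_finite_toFinset_sum _ h6, finsum_mem_eq_finite_toFinset_sum _ h4] at h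
  obtain ⟨s, hs, hsx⟩ := exists_lift f ω x hx
  refine absurd h (not_le.mpr ?_)
  refine Finset.sum_lt_sum_of_subset (Set.Finite.toFinset_mono h3) (i := s) ?_ ?_ (hw _)
    fun j _ _ => (hw _).le
  · rw [Set.Finite.mem_toFinset]
    exact ⟨hs, trivial⟩
  · rw [Set.Finite.mem_toFinset, Set.mem_iUnion]
    rintro ⟨i, hi⟩
    exact hne i (hsx ▸ hi.2)

theorem exists_nhd_of_split' (f : X ⟶ Y) [LocallyQuasiFinite f] [LocallyOfFiniteType f]
    [IsSeparated f] (hfin : ∀ y : Y, (f ⁻¹' {y}).Finite) (w : X → ℤ) (hw : MoreMor.IsWeighting f w)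
    (hpos : ∀ x, 0 < w x) (n : ℤ) (hmax : ∀ y, MoreMor.fibreIntegral f w y ≤ n) (y : Y)
    (hy : MoreMor.fibreIntegral f w y = n)
    (hs : ∀ x, f x = y → Split f x) :
    ∃ N : Y.Opens, y ∈ N ∧ (∀ y' ∈ N, MoreMor.fibreIntegral f w y' = n) ∧
      UniversallyClosed (f ∣_ N) := by
  let ι := f ⁻¹' {y}
  have : Finite ι := hfin y
  choose U hU hUf hUu using fun x : ι => hs x.1 x.2
  have hUcl : ∀ i, IsClosed (U i : Set X) := fun i => isClosed_of_isFinite f (U i)
  have huniq : ∀ (i : ι) (x : X), x ∈ U i → f x = y → x = i.1 := by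
    intro i x hx hxy
    have h1 := hUu i
    rw [show f i.1 = y from i.2] at h1
    exact h1.eq hx (hU i) hxy i.2
  have hB : ∀ i j : ι, IsClosed (f '' ((U i : Set X) ∩ (U j : Set X))) := by
    intro i j
    have h1 : f '' ((U i : Set X) ∩ (U j : Set X)) = ((U i).ι ≫ f) '' ((U i).ι ⁻¹' (U j : Set X)) := by
      ext z
      constructor
      · rintro ⟨x, ⟨hi, hj⟩, rfl⟩
        exact ⟨⟨x, hi⟩, hj, rfl⟩
      · rintro ⟨x, hx, rfl⟩
        exact ⟨(U i).ι x, ⟨ι_apply_mem _ _, hx⟩, rfl⟩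
    rw [h1]
    exact ((U i).ι ≫ f).isClosedMap _ ((hUcl j).preimage (U i).ι.continuous)
  have hyB : ∀ i j : ι, i ≠ j → y ∉ f '' ((U i : Set X) ∩ (U j : Set X)) := by
    rintro i j hij ⟨x, ⟨hi, hj⟩, hx⟩
    exact hij (Subtype.ext ((huniq i x hi hx).symm.trans (huniq j x hj hx)))
  have hloc : ∀ i, IsLocallyConstant (MoreMor.fibreIntegral ((U i).ι ≫ f) (fun u => w ((U i).ι u))) :=
    fun i => isLocallyConstant_of_isPullback (IsPullback.id_horiz f) hw (U i)
  let N₁ : Set Y := ⋂ (i : ι), ⋂ (j : {j : ι // i ≠ j}), (f '' ((U i : Set X) ∩ (U j : Set X)))ᶜ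
  have hN₁ : IsOpen N₁ := isOpen_iInter_of_finite fun i => isOpen_iInter_of_finite fun j =>
    (hB i j).isOpen_compl
  let N₂ : Set Y := ⋂ i, {y' | MoreMor.fibreIntegral ((U i).ι ≫ f) (fun u => w ((U i).ι u)) y' =
        MoreMor.fibreIntegral ((U i).ι ≫ f) (fun u => w ((U i).ι u)) y}
  have hN₂ : IsOpen N₂ := isOpen_iInter_of_finite fun i => (hloc i).isOpen_fiber _
  let N : Y.Opens := ⟨N₁ ∩ N₂, hN₁.inter hN₂⟩
  have hyN : y ∈ N := by
    refine ⟨Set.mem_iInter.mpr fun i => Set.mem_iInter.mpr fun j => hyB i j j.2,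
      Set.mem_iInter.mpr fun i => rfl⟩
  have hdisj : ∀ y' ∈ N, ∀ x i j, f x = y' → x ∈ U i → x ∈ U j → i = j := by
    intro y' hy' x i j hx hi hj
    by_contra hij
    have := Set.mem_iInter.mp (Set.mem_iInter.mp hy'.1 i) ⟨j, hij⟩
    exact this ⟨x, ⟨hi, hj⟩, hx⟩
  have hsum : ∀ y' ∈ N, ∑ᶠ i, MoreMor.fibreIntegral ((U i).ι ≫ f) (fun u => w ((U i).ι u)) y' = n := by
    intro y' hy'
    have h1 := fibreIntegral_eq_sum f w U y (fun x hx => ⟨⟨x, hx⟩, hU _⟩) (hdisj y hyN)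
    rw [← hy, h1]
    exact finsum_congr fun i => Set.mem_iInter.mp hy'.2 i
  have hint : ∀ y' ∈ N, MoreMor.fibreIntegral f w y' = n := by
    intro y' hy'
    refine le_antisymm (hmax y') ?_
    rw [← hsum y' hy']
    exact sum_le_fibreIntegral' f w (fun x => (hpos x).le) U y' (hfin y') (hdisj y' hy')
  have hcov : ∀ x, f x ∈ N → ∃ i, x ∈ U i := by
    intro x hx
    refine mem_of_fibreIntegral_le' f w hpos U (f x) (hfin _) (hdisj _ hx) ?_ x rfl
    rw [hint _ hx, hsum _ hx]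
  refine ⟨N, hyN, hint, ?_⟩
  cases nonempty_fintype ι
  obtain ⟨-, hUfin⟩ := isFinite_finset_sup f U hUcl hUf Finset.univ
  let A : X.Opens := Finset.univ.sup U
  have hA : f ⁻¹ᵁ N ≤ A := by
    intro x hx
    obtain ⟨i, hi⟩ := hcov x hx
    exact (Finset.le_sup (f := U) (Finset.mem_univ i)) hi
  have h1 : UniversallyClosed ((A.ι ≫ f) ∣_ N) := inferInstance
  rw [morphismRestrict_comp] at h1
  have h1' : UniversallyClosed (A.ι ∣_ (f ⁻¹ᵁ N) ≫ f ∣_ N) := h1
  have h2 : Surjective (A.ι ∣_ (f ⁻¹ᵁ N)) := by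
    refine ⟨fun x => ?_⟩
    obtain ⟨x, hx⟩ := x
    refine ⟨⟨⟨x, hA hx⟩, hx⟩, ?_⟩
    apply (f ⁻¹ᵁ N).ι.isOpenEmbedding.injective
    rw [← Scheme.Hom.comp_apply, morphismRestrict_ι]
    rfl
  exact UniversallyClosed.of_comp_surjective (A.ι ∣_ (f ⁻¹ᵁ N)) (f ∣_ N)

/-- The maximal locus is open and the morphism is universally closed over it. -/
theorem isOpen_and_UCW' (f : X ⟶ Y) [LocallyQuasiFinite f] [LocallyOfFiniteType f]
    [IsSeparated f] (hfin : ∀ y : Y, (f ⁻¹' {y}).Finite) (w : X → ℤ) (hw : MoreMor.IsWeighting f w)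
    (hpos : ∀ x, 0 < w x) (n : ℤ) (hmax : ∀ y, MoreMor.fibreIntegral f w y ≤ n) :
    ∃ h : IsOpen {y | MoreMor.fibreIntegral f w y = n},
      UCW ⟨{y | MoreMor.fibreIntegral f w y = n}, h⟩ f := by
  have key : ∀ y, MoreMor.fibreIntegral f w y = n → ∃ O : Y.Opens, y ∈ O ∧
      (∀ y' ∈ O, MoreMor.fibreIntegral f w y' = n) ∧ UCW O f := by
    intro y hy
    obtain ⟨V, g, v, hg, hv, H⟩ := exists_splitOver f y (f ⁻¹' {y}) (hfin y)
      (fun x hx => hx)
    have hc := IsPullback.of_hasPullback f g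
    have h2 := fun v' => fibreIntegral_baseChange f (pullback.snd f g) (pullback.fst f g) g hc w v'
    obtain ⟨N, hvN, hN1, hN2⟩ := exists_nhd_of_split' (pullback.snd f g)
      (fun v' => finite_fibre_baseChange f g v' (hfin _))
      (fun x => w (pullback.fst f g x)) (isWeighting_of_isPullback hc hw) (fun x => hpos _) n
      (fun y' => (h2 y').le.trans (hmax _)) v ((h2 v).trans (by rw [hv, hy])) (by
      intro x hx
      refine H x ?_ hx
      change f (pullback.fst f g x) = y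
      rw [← Scheme.Hom.comp_apply, pullback.condition, Scheme.Hom.comp_apply, hx, hv])
    let O : Y.Opens := ⟨g '' N, g.isOpenMap N N.2⟩
    refine ⟨O, ⟨v, hvN, hv⟩, ?_, ?_⟩
    · rintro _ ⟨v', hv', rfl⟩
      rw [← h2]
      exact hN1 v' hv'
    · refine UCW_of_etale f O (N.ι ≫ g) ?_ ?_
      · rintro _ ⟨v', hv', rfl⟩
        exact ⟨⟨v', hv'⟩, rfl⟩
      · have h3 := (isPullback_morphismRestrict (pullback.snd f g) N).flip.paste_horiz hc
        have h4 : IsPullback h3.isoPullback.inv (pullback.snd f (N.ι ≫ g)) (pullback.snd f g ∣_ N) (𝟙 _) :=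
          IsPullback.of_horiz_isIso ⟨by simp⟩
        exact MorphismProperty.of_isPullback h4 hN2
  have hopen : IsOpen {y | MoreMor.fibreIntegral f w y = n} := by
    rw [isOpen_iff_forall_mem_open]
    intro y hy
    obtain ⟨O, hyO, hO, -⟩ := key y hy
    exact ⟨O, hO, O.2, hyO⟩
  refine ⟨hopen, UCW_of_cover f _ fun y hy => ?_⟩
  obtain ⟨O, hyO, -, hO⟩ := key y hy
  exact ⟨O, hyO, hO⟩

/-- The maximal locus is open and the morphism is finite over it. -/
theorem isOpen_and_isFinite (f : X ⟶ Y) [LocallyQuasiFinite f] [LocallyOfFiniteType f]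
    [IsSeparated f] (hfin : ∀ y : Y, (f ⁻¹' {y}).Finite) (w : X → ℤ) (hw : MoreMor.IsWeighting f w)
    (hpos : ∀ x, 0 < w x) (n : ℤ) (hmax : ∀ y, MoreMor.fibreIntegral f w y ≤ n) :
    ∃ h : IsOpen {y | MoreMor.fibreIntegral f w y = n},
      IsFinite (f ∣_ ⟨{y | MoreMor.fibreIntegral f w y = n}, h⟩) := by
  obtain ⟨h, hU⟩ := isOpen_and_UCW' f hfin w hw hpos n hmax
  refine ⟨h, ?_⟩
  let W : Y.Opens := ⟨{y | MoreMor.fibreIntegral f w y = n}, h⟩
  have h1 : UniversallyClosed (f ∣_ W) := by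
    refine hU _ _ _ _ _ (isPullback_morphismRestrict f W).flip ?_
    rw [Scheme.Opens.range_ι]
  have h2 : IsProper (f ∣_ W) := {}
  exact .of_isProper_of_locallyQuasiFinite _

end Groth.Agent.Old.H20.MaxFinite
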