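import Groth.Agent.Old.H20.WeightLocal
import Groth.Agent.EtpbcA.ConstrTop
import Groth.Agent.Ega43.FPOfComp
import Mathlib.AlgebraicGeometry.Morphisms.FinitePresentation

/-!
The level sets of a weighting of a locally quasi-finite morphism (locally of finite type) are
locally constructible in the source.
-/

set_option autoImplicit false
universe u

namespace Groth.Agent.Old.H20.WeightLevel

open AlgebraicGeometry CategoryTheory Limits
open Groth.Agent.Flat2F Groth.Agent.Old.H20.WeightLocal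
open FibreIntegral GeomPts ResSplit Split WeightLoc Topology

variable {X Y : Scheme.{u}}

/-- Affine form of the étale local structure of a weighting. -/
theorem exists_local_affine (f : X ⟶ Y) [LocallyOfFiniteType f] [LocallyQuasiFinite f] (w : X → ℤ)
    (hw : MoreMor.IsWeighting f w) (x : X) :
    ∃ (V : Scheme.{u}) (_ : IsAffine V) (g : V ⟶ Y) (v : V) (z : ↥(pullback f g))
      (U : (pullback f g).Opens), Etale g ∧ g v = f x ∧ pullback.fst f g z = x ∧
      pullback.snd f g z = v ∧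
      z ∈ U ∧ IsFinite (U.ι ≫ pullback.snd f g) ∧ Uniq (pullback.snd f g) v U ∧
      ∀ v' : V, MoreMor.fibreIntegral (U.ι ≫ pullback.snd f g)
        (fun u => w (pullback.fst f g (U.ι u))) v' = w x := by
  obtain ⟨V, g, v, z, U, N, hg, hv, hz1, hz2, hU, hf, hu, hvN, hN⟩ := exists_local f w hw x
  obtain ⟨V₁, hV₁, hvV₁, hV₁N⟩ := exists_isAffineOpen_mem_and_subset (X := V) (x := v) (U := N) hvN
  have : IsAffine V₁ := hV₁
  let g₁ : (V₁ : Scheme.{u}) ⟶ Y := V₁.ι ≫ g
  let v₁ : (V₁ : Scheme.{u}) := ⟨v, hvV₁⟩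
  have hv₁ : V₁.ι v₁ = v := rfl
  let m : pullback f g₁ ⟶ pullback f g :=
    pullback.lift (pullback.fst _ _) (pullback.snd _ _ ≫ V₁.ι)
      (by rw [pullback.condition, Category.assoc])
  have hm : IsPullback m (pullback.snd f g₁) (pullback.snd f g) V₁.ι := by
    refine IsPullback.of_right (h₁₂ := pullback.fst f g) (v₁₃ := f) (h₂₂ := g) ?_
      (pullback.lift_snd _ _ _) (IsPullback.of_hasPullback _ _)
    rw [pullback.lift_fst]
    exact IsPullback.of_hasPullback _ _
  have hm1 : m ≫ pullback.fst f g = pullback.fst f g₁ := pullback.lift_fst _ _ _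
  obtain ⟨z₁, hz₁1, hz₁2⟩ : ∃ z₁ : ↥(pullback f g₁), m z₁ = z ∧ pullback.snd f g₁ z₁ = v₁ := by
    obtain ⟨t, ht1, ht2⟩ := Scheme.Pullback.exists_preimage_pullback (f := pullback.snd f g)
      (g := V₁.ι) z v₁ (by rw [hz2, hv₁])
    refine ⟨hm.isoPullback.inv t, ?_, ?_⟩
    · rw [← Scheme.Hom.comp_apply, hm.isoPullback_inv_fst, ht1]
    · rw [← Scheme.Hom.comp_apply, hm.isoPullback_inv_snd, ht2]
  refine ⟨V₁, this, g₁, v₁, z₁, m ⁻¹ᵁ U, inferInstance, ?_, ?_, hz₁2, ?_, ?_, ?_, ?_⟩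
  · rw [Scheme.Hom.comp_apply, hv₁, hv]
  · rw [← hm1, Scheme.Hom.comp_apply, hz₁1, hz1]
  · change m z₁ ∈ U
    rw [hz₁1]
    exact hU
  · exact isFinite_baseChange_ι hm U
  · refine Uniq.baseChange hm ?_
    rw [hv₁]
    exact hu
  · intro v'
    have hc2 := (isPullback_morphismRestrict m U).paste_vert hm
    have h2 := fibreIntegral_baseChange _ _ _ _ hc2 (fun u => w (pullback.fst f g (U.ι u))) v'
    have h3 := hN (V₁.ι v') (hV₁N v'.2)
    rw [h3] at h2
    rw [← h2]
    congr 1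
    ext u
    simp only [Function.comp_apply]
    rw [← Scheme.Hom.comp_apply, ← Scheme.Hom.comp_apply, ← Scheme.Hom.comp_apply, ← hm1,
      morphismRestrict_ι_assoc]

/-- Separating points of an affine scheme by constructible sets. -/
lemma exists_constructible_separating (Q : Scheme.{u}) [IsAffine Q] (q q' : Q) (h : q ≠ q') :
    ∃ C : Set Q, IsConstructible C ∧ q ∈ C ∧ q' ∉ C := by
  obtain ⟨U, hU, h1⟩ := exists_isOpen_xor_mem h
  rcases h1 with ⟨h1, h2⟩ | ⟨h1, h2⟩
  · obtain ⟨W, ⟨hW1, hW2⟩, hqW, hWU⟩ :=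
      (PrespectralSpace.isTopologicalBasis (X := Q)).mem_nhds_iff.mp (hU.mem_nhds h1)
    exact ⟨W, hW2.isConstructible hW1, hqW, fun h => h2 (hWU h)⟩
  · obtain ⟨W, ⟨hW1, hW2⟩, hqW, hWU⟩ :=
      (PrespectralSpace.isTopologicalBasis (X := Q)).mem_nhds_iff.mp (hU.mem_nhds h1)
    exact ⟨Wᶜ, (hW2.isConstructible hW1).compl, fun h => h2 (hWU h), fun h => h hqW⟩

/-- A point outside the image of a constructible set under a morphism of affine schemes has a
constructible neighbourhood disjoint from the image. -/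
lemma exists_constructible_disjoint {P Q : Scheme.{u}} [IsAffine P] [IsAffine Q] (p : P ⟶ Q)
    (D : Set P) (hD : IsConstructible D) (q : Q) (hq : q ∉ p '' D) :
    ∃ C : Set Q, IsConstructible C ∧ q ∈ C ∧ ∀ x ∈ D, p x ∉ C := by
  have h1 : ∀ x : D, ∃ C : Set Q, IsConstructible C ∧ q ∈ C ∧ p x.1 ∉ C := fun x =>
    exists_constructible_separating Q q (p x.1) (by rintro rfl; exact hq ⟨x.1, x.2, rfl⟩)
  choose C hC hqC hxC using h1
  let S : Option D → Set P := fun o => o.elim Dᶜ (fun x => p ⁻¹' (C x)ᶜ)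
  obtain ⟨t, ht⟩ := Groth.Agent.EtpbcA.ConstrTop.finite_subcover S (by
    rintro (_ | x)
    · exact hD.compl
    · exact p.isConstructible_preimage (hC x).compl) (by
    rw [Set.eq_univ_iff_forall]
    intro x
    rw [Set.mem_iUnion]
    by_cases hx : x ∈ D
    · exact ⟨some ⟨x, hx⟩, hxC ⟨x, hx⟩⟩
    · exact ⟨none, hx⟩)
  refine ⟨⋂ x ∈ {x : D | some x ∈ t}, C x, ?_, ?_, ?_⟩
  · refine IsConstructible.biInter ?_ fun x _ => hC x
    exact t.finite_toSet.preimage (Option.some_injective _).injOn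
  · simp only [Set.mem_iInter]
    exact fun x _ => hqC x
  · intro x hx hx'
    have h2 : x ∈ ⋃ i ∈ t, S i := ht ▸ Set.mem_univ x
    simp only [Set.mem_iUnion] at h2
    obtain ⟨i, hi, hxi⟩ := h2
    rcases i with _ | y
    · exact hxi hx
    · simp only [Set.mem_iInter] at hx'
      exact hxi (hx' y hi)

/-- For a morphism `f : X ⟶ Y` of affine schemes, locally of finite type, and a point `x` such
that the fibre product has only the diagonal over `x`, there is a constructible neighbourhood of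
`x` all of whose points have this property, expressed with geometric points. -/
lemma exists_constructible_uniq (f : X ⟶ Y) [IsAffine X] [IsAffine Y] [LocallyOfFiniteType f]
    (x : X) (hu : Uniq f (f x) ⊤) :
    ∃ C : Set X, IsConstructible C ∧ x ∈ C ∧ ∀ c ∈ C, ∀ (K : Type u) [Field K] [IsAlgClosed K]
      (s t : Spec (.of K) ⟶ X), s ≫ f = t ≫ f → t (pt K) = c → s = t := by
  let Δ := pullback.diagonal f
  have hΔ : LocallyOfFinitePresentation Δ := by
    have : LocallyOfFinitePresentation (pullback.diagonal f ≫ pullback.fst f f) := by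
      rw [pullback.diagonal_fst]; infer_instance
    exact Groth.Agent.Ega43.FPOfComp.locallyOfFinitePresentation_of_comp _ (pullback.fst f f)
  have hD : IsConstructible (Set.range Δ)ᶜ := by
    rw [isConstructible_compl, ← Set.image_univ]
    exact Δ.isConstructible_image IsConstructible.univ
  obtain ⟨C, hC, hxC, hC'⟩ := exists_constructible_disjoint (pullback.snd f f) _ hD x (by
    rintro ⟨t, ht, htx⟩
    apply ht
    obtain ⟨K, _, _, ω, rfl⟩ := exists_geometric_point (pullback f f) t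
    have h1 : ω ≫ pullback.fst f f ≫ f = ω ≫ pullback.snd f f ≫ f := by rw [pullback.condition]
    have h2 := (hu K (ω ≫ pullback.snd f f ≫ f) (by
      rw [Scheme.Hom.comp_apply, Scheme.Hom.comp_apply, htx])).unique
      (y₁ := ω ≫ pullback.fst f f) (y₂ := ω ≫ pullback.snd f f)
      ⟨by rw [Category.assoc, h1], trivial⟩ ⟨by rw [Category.assoc], trivial⟩
    have h3 : ω = (ω ≫ pullback.fst f f) ≫ Δ := by
      refine pullback.hom_ext ?_ ?_
      · rw [Category.assoc, pullback.diagonal_fst, Category.comp_id]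
      · rw [Category.assoc, pullback.diagonal_snd, Category.comp_id, ← h2]
    rw [h3, Scheme.Hom.comp_apply]
    exact ⟨_, rfl⟩)
  refine ⟨C, hC, hxC, ?_⟩
  intro c hc K _ _ s t hst htc
  let ω : Spec (.of K) ⟶ pullback f f := pullback.lift s t hst
  have h1 : ω (pt K) ∈ Set.range Δ := by
    by_contra hne
    refine hC' _ hne ?_
    rw [← Scheme.Hom.comp_apply, pullback.lift_snd, htc]
    exact hc
  obtain ⟨u, hu'⟩ := h1
  obtain ⟨s', hs', -⟩ := exists_lift Δ ω u hu'
  have h2 : s = s' := by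
    rw [← pullback.lift_fst s t hst]
    change ω ≫ _ = _
    rw [← hs', Category.assoc, pullback.diagonal_fst, Category.comp_id]
  have h3 : t = s' := by
    rw [← pullback.lift_snd s t hst]
    change ω ≫ _ = _
    rw [← hs', Category.assoc, pullback.diagonal_snd, Category.comp_id]
  rw [h2, h3]

/-- A weighting is constant on a constructible neighbourhood of every point of an affine open. -/
theorem exists_constructible_const (f : X ⟶ Y) [LocallyOfFiniteType f] [LocallyQuasiFinite f]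
    (w : X → ℤ) (hw : MoreMor.IsWeighting f w) (X₁ : X.Opens) (hX₁ : IsAffineOpen X₁)
    (x : (X₁ : Scheme.{u})) :
    ∃ C : Set (X₁ : Scheme.{u}), IsConstructible C ∧ x ∈ C ∧ ∀ c ∈ C, w (X₁.ι c) = w (X₁.ι x) := by
  obtain ⟨V, hV, g, v, z, U, hg, hv, hz1, hz2, hzU, hf, hu, hN⟩ :=
    exists_local_affine f w hw (X₁.ι x)
  have hUaff : IsAffine (U : Scheme.{u}) := isAffine_of_isAffineHom (U.ι ≫ pullback.snd f g)
  have hX₁aff : IsAffine (X₁ : Scheme.{u}) := hX₁
  let f₁ : (U : Scheme.{u}) ⟶ V := U.ι ≫ pullback.snd f g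
  let u₀ : (U : Scheme.{u}) := ⟨z, hzU⟩
  have hu₀ : f₁ u₀ = v := by
    change (U.ι ≫ pullback.snd f g) u₀ = v
    rw [Scheme.Hom.comp_apply]
    exact hz2
  have hu1 : Uniq f₁ (f₁ u₀) ⊤ := by
    intro K _ _ ω hω
    rw [hu₀] at hω
    obtain ⟨s, ⟨hs, hs'⟩, hs''⟩ := hu K ω hω
    refine ⟨liftOpen U s hs', ⟨?_, trivial⟩, ?_⟩
    · change liftOpen U s hs' ≫ U.ι ≫ _ = _
      rw [← Category.assoc, liftOpen_ι, hs]
    · rintro t ⟨ht, -⟩
      rw [← cancel_mono U.ι, liftOpen_ι]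
      refine hs'' _ ⟨?_, ?_⟩
      · change (t ≫ U.ι) ≫ _ = _
        rw [Category.assoc]
        exact ht
      · rw [Scheme.Hom.comp_apply]
        exact ι_apply_mem U _
  obtain ⟨C, hC, hu₀C, hCu⟩ := exists_constructible_uniq f₁ u₀ hu1
  let h₁ : (U : Scheme.{u}) ⟶ X := U.ι ≫ pullback.fst f g
  have hwC : ∀ c ∈ C, w (h₁ c) = w (X₁.ι x) := by
    intro c hc
    obtain ⟨K, _, _, ω, hω⟩ := exists_geometric_point V (f₁ c)
    obtain ⟨s₀, hs₀, hs₀c⟩ := exists_lift f₁ ω c hω.symm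
    have h2 : L f₁ ω ⊤ = {s₀} := by
      ext s
      constructor
      · rintro ⟨hs, -⟩
        exact hCu c hc K s s₀ (by rw [hs, hs₀]) hs₀c
      · rintro rfl
        exact ⟨hs₀, trivial⟩
    have h3 := fibreIntegral_top f₁ (fun u => w (h₁ u)) ω
    rw [h2, finsum_mem_singleton, hs₀c, hω] at h3
    rw [← h3, ← hN (f₁ c)]
    rfl
  -- pass to the affine open
  let W : (U : Scheme.{u}).Opens := h₁ ⁻¹ᵁ X₁
  have hu₀x : h₁ u₀ = X₁.ι x := by
    rw [Scheme.Hom.comp_apply]
    exact hz1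
  have hu₀W : u₀ ∈ W := by
    change h₁ u₀ ∈ X₁
    rw [hu₀x]
    exact x.2
  let u₁ : (W : Scheme.{u}) := ⟨u₀, hu₀W⟩
  obtain ⟨U₂, hU₂, hu₂, -⟩ := exists_isAffineOpen_mem_and_subset (X := (W : Scheme.{u})) (x := u₁)
    (U := ⊤) trivial
  have hU₂aff : IsAffine (U₂ : Scheme.{u}) := hU₂
  let j : (U₂ : Scheme.{u}) ⟶ X₁ := U₂.ι ≫ (h₁ ∣_ X₁)
  have hj : j ≫ X₁.ι = (U₂.ι ≫ W.ι) ≫ h₁ := by
    simp only [j, W, Category.assoc, morphismRestrict_ι]
  have hC₂ : IsConstructible ((U₂.ι ≫ W.ι) ⁻¹' C) :=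
    Scheme.Hom.isConstructible_preimage (U₂.ι ≫ W.ι) hC
  refine ⟨j '' ((U₂.ι ≫ W.ι) ⁻¹' C), j.isConstructible_image hC₂, ?_, ?_⟩
  · refine ⟨⟨u₁, hu₂⟩, ?_, ?_⟩
    · exact hu₀C
    · apply X₁.ι.isOpenEmbedding.injective
      have h5 : ∀ y : (U₂ : Scheme.{u}), X₁.ι (j y) = h₁ ((U₂.ι ≫ W.ι) y) := fun y => by
        rw [← Scheme.Hom.comp_apply, hj, Scheme.Hom.comp_apply]
      exact (h5 ⟨u₁, hu₂⟩).trans hu₀x
  · rintro _ ⟨c, hc, rfl⟩
    rw [← Scheme.Hom.comp_apply, hj, Scheme.Hom.comp_apply]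
    exact hwC _ hc

/-- The level sets of a weighting are constructible on affine opens. -/
theorem isConstructible_of_isAffineOpen (f : X ⟶ Y) [LocallyOfFiniteType f] [LocallyQuasiFinite f]
    (w : X → ℤ) (hw : MoreMor.IsWeighting f w) (n : ℤ) (X₁ : X.Opens) (hX₁ : IsAffineOpen X₁) :
    IsConstructible {x : (X₁ : Scheme.{u}) | w (X₁.ι x) = n} := by
  have : IsAffine (X₁ : Scheme.{u}) := hX₁
  choose Z hZ hyZ hZw using exists_constructible_const f w hw X₁ hX₁
  obtain ⟨t, ht⟩ := Groth.Agent.EtpbcA.ConstrTop.finite_subcover Z hZ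
    (Set.eq_univ_of_forall fun y => Set.mem_iUnion.mpr ⟨y, hyZ y⟩)
  have : {x : (X₁ : Scheme.{u}) | w (X₁.ι x) = n} =
      ⋃ i ∈ {i : (X₁ : Scheme.{u}) | i ∈ t ∧ w (X₁.ι i) = n}, Z i := by
    ext y
    simp only [Set.mem_ofPred_eq, Set.mem_iUnion, exists_prop]
    constructor
    · intro hy
      have h1 : y ∈ ⋃ i ∈ t, Z i := ht ▸ Set.mem_univ y
      simp only [Set.mem_iUnion, exists_prop] at h1
      obtain ⟨i, hi, hyi⟩ := h1
      exact ⟨i, ⟨hi, (hZw i y hyi).symm.trans hy⟩, hyi⟩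
    · rintro ⟨i, ⟨hi, hin⟩, hyi⟩
      exact (hZw i y hyi).trans hin
  rw [this]
  refine IsConstructible.biUnion ?_ fun i _ => hZ i
  exact t.finite_toSet.subset fun i hi => hi.1

/-- A weighting takes finitely many values on an affine open. -/
theorem finite_range_of_isAffineOpen (f : X ⟶ Y) [LocallyOfFiniteType f] [LocallyQuasiFinite f]
    (w : X → ℤ) (hw : MoreMor.IsWeighting f w) (X₁ : X.Opens) (hX₁ : IsAffineOpen X₁) :
    (Set.range fun x : (X₁ : Scheme.{u}) => w (X₁.ι x)).Finite := by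
  have : IsAffine (X₁ : Scheme.{u}) := hX₁
  choose Z hZ hyZ hZw using exists_constructible_const f w hw X₁ hX₁
  obtain ⟨t, ht⟩ := Groth.Agent.EtpbcA.ConstrTop.finite_subcover Z hZ
    (Set.eq_univ_of_forall fun y => Set.mem_iUnion.mpr ⟨y, hyZ y⟩)
  refine (t.finite_toSet.image fun x => w (X₁.ι x)).subset ?_
  rintro _ ⟨y, rfl⟩
  have h1 : y ∈ ⋃ i ∈ t, Z i := ht ▸ Set.mem_univ y
  simp only [Set.mem_iUnion, exists_prop] at h1
  obtain ⟨i, hi, hyi⟩ := h1
  exact ⟨i, hi, (hZw i y hyi).symm⟩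

/-- The level sets of a weighting are locally constructible. -/
theorem isLocallyConstructible (f : X ⟶ Y) [LocallyOfFiniteType f] [LocallyQuasiFinite f]
    (w : X → ℤ) (hw : MoreMor.IsWeighting f w) (n : ℤ) :
    IsLocallyConstructible {x : X | w x = n} := by
  intro x
  obtain ⟨U, hU, hxU, -⟩ := exists_isAffineOpen_mem_and_subset (X := X) (x := x) (U := ⊤) trivial
  exact ⟨U, U.2.mem_nhds hxU, U.2, isConstructible_of_isAffineOpen f w hw n U hU⟩

end Groth.Agent.Old.H20.WeightLevel
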