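import Groth.Agent.Flat2F.WeightLoc
import Mathlib.Topology.Semicontinuity.Defs

/-!
Étale local structure of weightings, and upper semicontinuity of positive weightings.
-/

set_option autoImplicit false
universe u

namespace Groth.Agent.Old.H20.WeightLocal

open AlgebraicGeometry CategoryTheory Limits
open Groth.Agent.Flat2F
open FibreIntegral GeomPts ResSplit Split WeightLoc Topology

variable {X Y : Scheme.{u}}

/-- Étale local structure of a weighting at a point: after an étale base change there is an open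
finite over the base, with a unique geometric point over the marked point, over which the fibre
integral is constant. -/
theorem exists_local (f : X ⟶ Y) [LocallyOfFiniteType f] [LocallyQuasiFinite f] (w : X → ℤ)
    (hw : MoreMor.IsWeighting f w) (x : X) :
    ∃ (V : Scheme.{u}) (g : V ⟶ Y) (v : V) (z : ↥(pullback f g)) (U : (pullback f g).Opens)
      (N : V.Opens), Etale g ∧ g v = f x ∧ pullback.fst f g z = x ∧ pullback.snd f g z = v ∧
      z ∈ U ∧ IsFinite (U.ι ≫ pullback.snd f g) ∧ Uniq (pullback.snd f g) v U ∧ v ∈ N ∧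
      ∀ v' ∈ N, MoreMor.fibreIntegral (U.ι ≫ pullback.snd f g)
        (fun u => w (pullback.fst f g (U.ι u))) v' = w x := by
  obtain ⟨V, g, v, hg, hv, H⟩ := exists_splitOver_singleton f x
  obtain ⟨z, hz1, hz2⟩ := Scheme.Pullback.exists_preimage_pullback (f := f) (g := g) x v hv.symm
  obtain ⟨U, hU, hf, hu⟩ := H z hz1 hz2
  rw [hz2] at hu
  have hloc := isLocallyConstant_of_isPullback (IsPullback.of_hasPullback f g) hw U
  have h1 : MoreMor.fibreIntegral (U.ι ≫ pullback.snd f g)
      (fun u => w (pullback.fst f g (U.ι u))) v = w x := by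
    have := Uniq.fibreIntegral hu (fun z => w (pullback.fst f g z)) hU hz2
    rw [hz1] at this
    exact this
  refine ⟨V, g, v, z, U, ⟨_, hloc.isOpen_fiber (MoreMor.fibreIntegral (U.ι ≫ pullback.snd f g)
      (fun u => w (pullback.fst f g (U.ι u))) v)⟩, hg, hv, hz1, hz2, hU, hf, hu, rfl, ?_⟩
  intro v' hv'
  have h2 : MoreMor.fibreIntegral (U.ι ≫ pullback.snd f g)
      (fun u => w (pullback.fst f g (U.ι u))) v' = _ := hv'
  rw [h2, h1]

/-- A nonnegative weight is bounded by the fibre integral. -/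
lemma le_fibreIntegral (f : X ⟶ Y) [LocallyQuasiFinite f] (U : X.Opens) [IsFinite (U.ι ≫ f)]
    (w : X → ℤ) (hw : ∀ x, 0 ≤ w x) (x : X) (hx : x ∈ U) :
    w x ≤ MoreMor.fibreIntegral (U.ι ≫ f) (fun u => w (U.ι u)) (f x) := by
  obtain ⟨K, _, _, ω, hω⟩ := exists_geometric_point Y (f x)
  obtain ⟨s, hs, hsx⟩ := exists_lift f ω x hω.symm
  have h0 : MoreMor.fibreIntegral (U.ι ≫ f) (fun u => w (U.ι u)) (f x) =
      ∑ᶠ s ∈ L f ω U, w (s (pt K)) := by
    rw [← hω]
    exact fibreIntegral_ι f U w ω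
  rw [h0, finsum_mem_eq_finite_toFinset_sum _ (finite_L f U ω)]
  have h1 : s ∈ (finite_L f U ω).toFinset := by
    rw [Set.Finite.mem_toFinset]
    exact ⟨hs, by rw [hsx]; exact hx⟩
  have h2 := Finset.single_le_sum (f := fun s : Spec (.of K) ⟶ X => w (s (pt K)))
    (fun i _ => hw _) h1
  rw [hsx] at h2
  exact h2

/-- Positive weightings are upper semicontinuous. -/
theorem upperSemicontinuous (f : X ⟶ Y) [LocallyOfFiniteType f] [LocallyQuasiFinite f] (w : X → ℤ)
    (hw : MoreMor.IsWeighting f w) (hpos : ∀ x, 0 ≤ w x) : UpperSemicontinuous w := by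
  intro x n hn
  obtain ⟨V, g, v, z, U, N, hg, hv, hz1, hz2, hU, hf, hu, hvN, hN⟩ := exists_local f w hw x
  have h1 : IsOpen (pullback.fst f g '' ((U : Set ↥(pullback f g)) ∩ pullback.snd f g ⁻¹' N)) :=
    (pullback.fst f g).isOpenMap _ (U.2.inter (N.2.preimage (pullback.snd f g).continuous))
  refine Filter.mem_of_superset (h1.mem_nhds ⟨z, ⟨hU, by rw [Set.mem_preimage, hz2]; exact hvN⟩, hz1⟩) ?_
  rintro _ ⟨u, ⟨hu1, hu2⟩, rfl⟩
  refine lt_of_le_of_lt ?_ hn
  have h2 := le_fibreIntegral (pullback.snd f g) U (fun z => w (pullback.fst f g z))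
    (fun _ => hpos _) u hu1
  exact h2.trans (hN _ hu2).le

end Groth.Agent.Old.H20.WeightLocal
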